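import Cfsg.Agent.Lib.FusionSimple2.Abstract

/-!
# The criterion for a subgroup of an ambient group, transported to every Sylow subgroup of an isomorphic group
-/

set_option autoImplicit false

namespace Cfsg.Agent.Lib.FusionSimple2.Rel

open Cfsg Cfsg.FusionSystem Cfsg.Agent.Lib.FusionSimple2.Abstract

set_option linter.unusedSectionVars false

variable {A : Type*} [Group A]

/-- The hypotheses of the criterion for subgroups of `M ≤ A`. -/
structure RelData (M S Q : Subgroup A) (t y₁ y₂ : A) : Prop where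
  hne : S ≠ ⊥
  hSM : S ≤ M
  hT : ∀ T : Subgroup A, T ≤ S → T ≠ ⊥ →
    (∀ x ∈ T, ∀ g ∈ M, g * x * g⁻¹ ∈ S → g * x * g⁻¹ ∈ T) → T = S
  hQS : Q ≤ S
  hSQ : ∀ s ∈ S, ∀ q ∈ Q, s * q * s⁻¹ ∈ Q
  hQw : ∀ g ∈ M, (∀ q ∈ Q, g * q * g⁻¹ ∈ S) → ∀ q ∈ Q, g * q * g⁻¹ ∈ Q
  htM : t ∈ M
  htS : ∀ s ∈ S, t * s * t⁻¹ ∈ S
  htQ : ∀ q ∈ Q, t * q * t⁻¹ ∈ Q
  hN : ∀ g ∈ M, (∀ s ∈ S, g * s * g⁻¹ ∈ S) → ∃ i : ℕ, i < 3 ∧ ∃ s ∈ S, g = t ^ i * s
  hC : ∀ g ∈ M, (∀ s ∈ S, g * s * g⁻¹ ∈ S) → (∀ q ∈ Q, g * q * g⁻¹ = t * q * t⁻¹) →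
    ∃ s ∈ S, g = t * s
  hy₁M : y₁ ∈ M
  hy₂M : y₂ ∈ M
  hy₁ : y₁ ^ 5 = 1
  hy₂ : y₂ ^ 5 = 1
  hy₁Q : ∀ q ∈ Q, y₁ * q * y₁⁻¹ ∈ Q
  hy₂Q : ∀ q ∈ Q, y₂ * q * y₂⁻¹ ∈ Q
  ht : t = y₁ * y₂

variable {G : Type*} [Group G] [Finite G]

theorem fusData_of_rel {M S Q : Subgroup A} {t₀ y₁₀ y₂₀ : A} (R : RelData M S Q t₀ y₁₀ y₂₀)
    (ι : G →* A) (hι : Function.Injective ι) (hr : ∀ x, ι x ∈ M) (hs : ∀ m ∈ M, ∃ x, ι x = m)
    {t y₁ y₂ : G} (ht : ι t = t₀) (h1 : ι y₁ = y₁₀) (h2 : ι y₂ = y₂₀) :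
    FusData (S.comap ι) (Q.comap ι) t y₁ y₂ := by
  have hcon : ∀ g x : G, ι (g * x * g⁻¹) = ι g * ι x * (ι g)⁻¹ := by
    intro g x
    simp
  have liftS : ∀ s ∈ S, ∃ x ∈ S.comap ι, ι x = s := by
    intro s hs'
    obtain ⟨x, rfl⟩ := hs s (R.hSM hs')
    exact ⟨x, hs', rfl⟩
  have liftQ : ∀ q ∈ Q, ∃ x ∈ Q.comap ι, ι x = q := by
    intro q hq
    obtain ⟨x, rfl⟩ := hs q (R.hSM (R.hQS hq))
    exact ⟨x, hq, rfl⟩
  have normS : ∀ g : G, (∀ s ∈ S.comap ι, g * s * g⁻¹ ∈ S.comap ι) →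
      ∀ s ∈ S, ι g * s * (ι g)⁻¹ ∈ S := by
    intro g hg s hs'
    obtain ⟨x, hx, rfl⟩ := liftS s hs'
    have := hg x hx
    rwa [Subgroup.mem_comap, hcon] at this
  refine
    { hne := ?_
      hT := ?_
      hQS := fun x hx => R.hQS hx
      hSQ := ?_
      hQw := ?_
      htS := ?_
      htQ := ?_
      hN := ?_
      hC := ?_
      hy₁ := ?_
      hy₂ := ?_
      hy₁Q := ?_
      hy₂Q := ?_
      ht := ?_ }
  · intro h
    apply R.hne
    rw [eq_bot_iff]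
    intro s hs'
    obtain ⟨x, hx, rfl⟩ := liftS s hs'
    rw [h, Subgroup.mem_bot] at hx
    rw [hx, map_one, Subgroup.mem_bot]
  · intro T hTS hne hcl
    have hT₁ := R.hT (T.map ι) (by
      rintro _ ⟨x, hx, rfl⟩
      exact hTS hx) (by
      intro h
      apply hne
      rw [eq_bot_iff]
      intro x hx
      have h1 : ι x ∈ T.map ι := ⟨x, hx, rfl⟩
      rw [h, Subgroup.mem_bot] at h1
      rw [Subgroup.mem_bot]
      exact hι (h1.trans (map_one ι).symm)) (by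
      rintro _ ⟨x, hx, rfl⟩ g hg hgx
      obtain ⟨g', rfl⟩ := hs g hg
      rw [← hcon] at hgx ⊢
      exact ⟨_, hcl x hx g' hgx, rfl⟩)
    apply le_antisymm hTS
    intro x hx
    have h1 : ι x ∈ T.map ι := by
      rw [hT₁]
      exact hx
    obtain ⟨y, hy, hyx⟩ := h1
    rwa [← hι hyx]
  · intro s hs' q hq
    rw [Subgroup.mem_comap, hcon]
    exact R.hSQ _ hs' _ hq
  · intro g hg q hq
    rw [Subgroup.mem_comap, hcon]
    refine R.hQw _ (hr g) ?_ _ hq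
    intro q' hq'
    obtain ⟨x, hx, rfl⟩ := liftQ q' hq'
    have := hg x hx
    rwa [Subgroup.mem_comap, hcon] at this
  · intro s hs'
    rw [Subgroup.mem_comap, hcon, ht]
    exact R.htS _ hs'
  · intro s hs'
    rw [Subgroup.mem_comap, hcon, ht]
    exact R.htQ _ hs'
  · intro g hg
    obtain ⟨i, hi, s, hs', e⟩ := R.hN _ (hr g) (normS g hg)
    obtain ⟨x, hx, rfl⟩ := liftS s hs'
    refine ⟨i, hi, x, hx, hι ?_⟩
    rw [e, map_mul, map_pow, ht]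
  · intro g hg hq
    obtain ⟨s, hs', e⟩ := R.hC _ (hr g) (normS g hg) (by
      intro q hq'
      obtain ⟨x, hx, rfl⟩ := liftQ q hq'
      have := congrArg ι (hq x hx)
      rwa [hcon, hcon, ht] at this)
    obtain ⟨x, hx, rfl⟩ := liftS s hs'
    refine ⟨x, hx, hι ?_⟩
    rw [e, map_mul, ht]
  · apply hι
    rw [map_pow, h1, R.hy₁, map_one]
  · apply hι
    rw [map_pow, h2, R.hy₂, map_one]
  · intro s hs'
    rw [Subgroup.mem_comap, hcon, h1]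
    exact R.hy₁Q _ hs'
  · intro s hs'
    rw [Subgroup.mem_comap, hcon, h2]
    exact R.hy₂Q _ hs'
  · apply hι
    rw [map_mul, h1, h2, ht]
    exact R.ht

/-- The criterion for all Sylow subgroups. -/
theorem simple_of_rel {M S₀ Q₀ : Subgroup A} {t₀ y₁₀ y₂₀ : A} (R : RelData M S₀ Q₀ t₀ y₁₀ y₂₀)
    {k m : ℕ} (hcard : Nat.card S₀ = 2 ^ k) (hM : Nat.card M = 2 ^ k * m) (hm : Odd m)
    (e : G ≃* M) (S : Sylow 2 G) : (groupFusionSystem (S : Subgroup G)).IsSimple 2 := by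
  have hfac : (Nat.card G).factorization 2 = k := by
    have hm0 : m ≠ 0 := by
      rintro rfl
      simp at hm
    rw [Nat.card_congr e.toEquiv, hM, Nat.factorization_mul (by positivity) hm0,
      Nat.Prime.factorization_pow Nat.prime_two]
    have : m.factorization 2 = 0 := Nat.factorization_eq_zero_of_not_dvd (by
      intro h
      exact (Nat.not_even_iff_odd.2 hm) (even_iff_two_dvd.2 h))
    simp [this]
  let ι₁ : G →* A := M.subtype.comp e.toMonoidHom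
  have hι₁ : Function.Injective ι₁ := by
    intro a b hab
    exact e.injective (Subtype.ext hab)
  have hs₁ : ∀ m ∈ M, ∃ x, ι₁ x = m := by
    intro m hm'
    refine ⟨e.symm ⟨m, hm'⟩, ?_⟩
    show ((e (e.symm ⟨m, hm'⟩) : M) : A) = m
    rw [MulEquiv.apply_symm_apply]
  let U : Subgroup G := S₀.comap ι₁
  have hU : Nat.card U = 2 ^ (Nat.card G).factorization 2 := by
    rw [hfac, ← hcard]
    have : U.map ι₁ = S₀ := by
      ext x
      constructor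
      · rintro ⟨y, hy, rfl⟩
        exact hy
      · intro hx
        obtain ⟨y, rfl⟩ := hs₁ x (R.hSM hx)
        exact ⟨y, hx, rfl⟩
    rw [← this, Subgroup.card_map_of_injective hι₁]
  let P : Sylow 2 G := Sylow.ofCard U hU
  obtain ⟨c, hc⟩ := MulAction.exists_smul_eq G P S
  let ι : G →* A := ι₁.comp (MulAut.conj c⁻¹).toMonoidHom
  have hιa : ∀ x, ι x = ι₁ (c⁻¹ * x * c) := by
    intro x
    show ι₁ (c⁻¹ * x * c⁻¹⁻¹) = _
    rw [inv_inv]
  have hι : Function.Injective ι := by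
    intro a b hab
    rw [hιa, hιa] at hab
    have := hι₁ hab
    exact mul_left_cancel (mul_right_cancel this)
  have hr : ∀ x, ι x ∈ M := by
    intro x
    rw [hιa]
    exact (e _).2
  have hs : ∀ m ∈ M, ∃ x, ι x = m := by
    intro m hm'
    obtain ⟨x, rfl⟩ := hs₁ m hm'
    refine ⟨c * x * c⁻¹, ?_⟩
    rw [hιa]
    congr 1
    group
  have hS : (S : Subgroup G) = S₀.comap ι := by
    ext x
    rw [← hc, Cfsg.Agent.Lib.FusionSimple.Basic.mem_smul_sylow, Sylow.coe_ofCard, Subgroup.mem_comap,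
      Subgroup.mem_comap, hιa]
  obtain ⟨t, ht⟩ := hs _ R.htM
  obtain ⟨y₁, h1⟩ := hs _ R.hy₁M
  obtain ⟨y₂, h2⟩ := hs _ R.hy₂M
  have hD := fusData_of_rel R ι hι hr hs ht h1 h2
  rw [← hS] at hD
  exact simple_of_fusData S hD

end Cfsg.Agent.Lib.FusionSimple2.Rel
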